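import Cfsg.Prelude.Def_Transfer
import Cfsg.Agent.PGroup.Frattini
import Mathlib

/-!
Elementary abelian groups of order eight of automorphisms of a `p`-group, `p` odd, in which the
elements with non-cyclic fixed point group are few.
-/

set_option autoImplicit false
set_option linter.unusedSectionVars false

namespace Cfsg.Agent.AutEight

open Subgroup
open scoped commutatorElement

variable {P : Type*} [Group P] {p : ℕ}

/-- The fixed points of `T` form a cyclic group. -/
def FixCyclic (T : MulAut P) : Prop := ∃ g : P, ∀ x : P, (T x = x ↔ x ∈ zpowers g)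

theorem eq_one_of_sq [Finite P] [hp : Fact p.Prime] (hP : IsPGroup p P) (hp2 : p ≠ 2) {x : P}
    (h : x * x = 1) : x = 1 := by
  obtain ⟨k, hk⟩ := IsPGroup.iff_orderOf.1 hP x
  have h1 : orderOf x ∣ 2 := orderOf_dvd_of_pow_eq_one (by rw [sq, h])
  have h2 : (orderOf x).Coprime 2 := by
    rw [hk]
    exact ((Nat.coprime_primes hp.out Nat.prime_two).2 hp2).pow_left k
  exact orderOf_eq_one_iff.1 (Nat.Coprime.eq_one_of_dvd h2 h1)

theorem exists_root [Finite P] [hp : Fact p.Prime] (hP : IsPGroup p P) (hp2 : p ≠ 2) :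
    ∃ m : ℕ, ∀ d : P, d ^ m * d ^ m = d := by
  obtain ⟨k, hk⟩ := IsPGroup.iff_card.1 hP
  have hodd : Odd (p ^ k) := (hp.out.odd_of_ne_two hp2).pow
  obtain ⟨m, hm⟩ := hodd
  refine ⟨m + 1, fun d => ?_⟩
  rw [← pow_add, show m + 1 + (m + 1) = 2 * m + 1 + 1 by ring, pow_succ, ← hm, ← hk,
    pow_card_eq_one', one_mul]

/-- An involutory automorphism fixing a coset of a characteristic subgroup fixes an element of it. -/
theorem exists_fixed [Finite P] [Fact p.Prime] (hP : IsPGroup p P) (hp2 : p ≠ 2) {t : MulAut P}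
    (ht : t * t = 1) (N : Subgroup P) {x : P} (h : x⁻¹ * t x ∈ N) :
    ∃ c : P, t c = c ∧ c⁻¹ * x ∈ N := by
  obtain ⟨m, hm⟩ := exists_root hP hp2
  have htt : ∀ y, t (t y) = y := fun y => by rw [← MulAut.mul_apply, ht]; rfl
  set d := (t x)⁻¹ * x with hd
  have htd : t d = d⁻¹ := by rw [hd, map_mul, map_inv, htt, mul_inv_rev, inv_inv]
  have hdN : d ∈ N := by
    have := N.inv_mem h
    rwa [mul_inv_rev, inv_inv] at this
  refine ⟨x * (d ^ m)⁻¹, ?_, ?_⟩
  · rw [map_mul, map_inv, map_pow, htd, inv_pow, inv_inv, eq_mul_inv_iff_mul_eq, mul_assoc, hm,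
      hd, mul_inv_cancel_left]
  · rw [mul_inv_rev, inv_inv, inv_mul_cancel_right]
    exact pow_mem hdN m

theorem image_sign [Finite P] [hp : Fact p.Prime] (hP : IsPGroup p P) (hp2 : p ≠ 2) {T : MulAut P}
    (hT : T * T = 1) {g : P} (hg : T g ∈ zpowers g) : T g = g ∨ T g = g⁻¹ := by
  obtain ⟨n, hn⟩ := mem_zpowers_iff.1 hg
  obtain ⟨k, hk⟩ := IsPGroup.iff_orderOf.1 hP g
  have h1 : g ^ ((n - 1) * (n + 1)) = 1 := by
    have h2 : T (T g) = g := by rw [← MulAut.mul_apply, hT]; rfl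
    rw [← hn, map_zpow, ← hn, ← zpow_mul] at h2
    rw [show (n - 1) * (n + 1) = n * n - 1 by ring, zpow_sub, h2, zpow_one, mul_inv_cancel]
  rw [← orderOf_dvd_iff_zpow_eq_one, hk] at h1
  have hpi : Prime (p : ℤ) := Nat.prime_iff_prime_int.1 hp.out
  by_cases hd : (p : ℤ) ∣ n - 1
  · left
    have hnd : ¬ (p : ℤ) ∣ n + 1 := fun h => by
      have h2 : (p : ℤ) ∣ 2 := by
        have := dvd_sub h hd
        rwa [show (n + 1) - (n - 1) = 2 by ring] at this
      exact hp2 ((Nat.prime_dvd_prime_iff_eq hp.out Nat.prime_two).1 (by exact_mod_cast h2))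
    have h3 : ((p ^ k : ℕ) : ℤ) ∣ n - 1 := by
      push_cast at h1 ⊢
      exact ((hpi.coprime_iff_not_dvd.2 hnd).pow_left).dvd_of_dvd_mul_right h1
    rw [← hk, orderOf_dvd_iff_zpow_eq_one, zpow_sub, zpow_one, mul_inv_eq_one] at h3
    rw [← hn, h3]
  · right
    have h3 : ((p ^ k : ℕ) : ℤ) ∣ n + 1 := by
      push_cast at h1 ⊢
      exact ((hpi.coprime_iff_not_dvd.2 hd).pow_left).dvd_of_dvd_mul_left h1
    rw [← hk, orderOf_dvd_iff_zpow_eq_one, zpow_add, zpow_one] at h3
    rw [← hn]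
    exact eq_inv_of_mul_eq_one_left h3

theorem generation [Finite P] [Fact p.Prime] (hP : IsPGroup p P) (hp2 : p ≠ 2) (t₁ t₂ : MulAut P)
    (h₁ : t₁ * t₁ = 1) (h₂ : t₂ * t₂ = 1) (hc : t₁ * t₂ = t₂ * t₁) (H : Subgroup P)
    (hH₁ : ∀ x, t₁ x = x → x ∈ H) (hH₂ : ∀ x, t₂ x = x → x ∈ H)
    (hH₃ : ∀ x, (t₁ * t₂) x = x → x ∈ H) : H = ⊤ := by
  refine PGroup.eq_top_of_sup_frattini (eq_top_iff.2 fun x _ => ?_)
  let π := QuotientGroup.mk' (frattini P)
  have hπc : ∀ u v : P, π u * π v = π v * π u := fun u v => by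
    rw [← map_mul, ← map_mul, QuotientGroup.mk'_apply, QuotientGroup.mk'_apply, QuotientGroup.eq,
      show (u * v)⁻¹ * (v * u) = ⁅v⁻¹, u⁻¹⁆ by rw [commutatorElement_def]; group]
    exact PGroup.commutatorElement_mem_frattini hP _ _
  letI : CommGroup (P ⧸ frattini P) :=
    { (inferInstance : Group (P ⧸ frattini P)) with
      mul_comm := fun a b => by
        obtain ⟨a, rfl⟩ := QuotientGroup.mk'_surjective (frattini P) a
        obtain ⟨b, rfl⟩ := QuotientGroup.mk'_surjective (frattini P) b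
        exact hπc a b }
  have hfix : ∀ (t : MulAut P), t * t = 1 → (∀ y, t y = y → y ∈ H) → ∀ y : P, π (t y) = π y →
      y ∈ H ⊔ frattini P := by
    intro t ht hH y hy
    obtain ⟨c, hc, hcy⟩ := exists_fixed hP hp2 ht (frattini P) (x := y) (by
      rw [← QuotientGroup.eq]; exact hy.symm)
    rw [show y = c * (c⁻¹ * y) by group]
    exact mul_mem (mem_sup_left (hH c hc)) (mem_sup_right hcy)
  have hsq : ∀ (t : MulAut P), t * t = 1 → ∀ y, t (t y) = y := fun t ht y => by
    rw [← MulAut.mul_apply, ht]; rfl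
  have h12 : ∀ y, t₁ (t₂ y) = t₂ (t₁ y) := fun y => by
    rw [← MulAut.mul_apply, hc, MulAut.mul_apply]
  have h33 : (t₁ * t₂) * (t₁ * t₂) = 1 := by
    rw [mul_assoc, ← mul_assoc t₂, ← hc, mul_assoc t₁ t₂, h₂, mul_one, h₁]
  have m₁ := hfix t₁ h₁ hH₁ (x * t₁ x) (by
    rw [map_mul t₁, hsq t₁ h₁, map_mul, map_mul, hπc])
  have m₂ := hfix t₂ h₂ hH₂ (x * t₂ x) (by
    rw [map_mul t₂, hsq t₂ h₂, map_mul, map_mul, hπc])
  have m₃ := hfix (t₁ * t₂) h33 hH₃ (x * t₁ (t₂ x)) (by
    rw [MulAut.mul_apply, map_mul t₂, map_mul t₁, ← h12 (t₂ x), hsq t₁ h₁, hsq t₂ h₂, map_mul,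
      map_mul, hπc])
  have m₄ := hfix t₂ h₂ hH₂ (x * t₁ x * (t₂ (x * t₁ x))) (by
    rw [map_mul t₂ (x * t₁ x), hsq t₂ h₂, map_mul, map_mul, hπc]
    rw [← map_mul, ← map_mul])
  have h := mul_mem (mul_mem (mul_mem m₁ m₂) m₃) (inv_mem m₄)
  have hx2 : (x * x)⁻¹ * (x * t₁ x * (x * t₂ x) * (x * t₁ (t₂ x)) *
      (x * t₁ x * t₂ (x * t₁ x))⁻¹) ∈ frattini P := by
    rw [← QuotientGroup.eq_one_iff, ← QuotientGroup.mk'_apply]
    simp only [map_mul, map_inv, ← h12]
    show (π x * π x)⁻¹ * (π x * π (t₁ x) * (π x * π (t₂ x)) * (π x * π (t₁ (t₂ x))) *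
      (π x * π (t₁ x) * (π (t₂ x) * π (t₁ (t₂ x))))⁻¹) = 1
    generalize π x = a, π (t₁ x) = b, π (t₂ x) = c, π (t₁ (t₂ x)) = d
    apply Additive.ofMul.injective
    simp only [ofMul_mul, ofMul_inv, ofMul_one]
    abel
  have hxx : x * x ∈ H ⊔ frattini P := by
    have h2 := mul_mem h (inv_mem (mem_sup_right (S := H) hx2))
    rwa [show ∀ a b : P, a * (b⁻¹ * a)⁻¹ = b from fun a b => by group] at h2
  obtain ⟨m, hm⟩ := exists_root hP hp2
  rw [← hm x]
  have : x ^ m * x ^ m = (x * x) ^ m := by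
    rw [← sq, ← sq, ← pow_mul, ← pow_mul, mul_comm]
  rw [this]
  exact pow_mem hxx m

theorem fin_three_others : ∀ i : Fin 3, ∃ j l : Fin 3, j ≠ i ∧ l ≠ i ∧ j ≠ l := by decide

theorem fin_three_cases : ∀ i : Fin 3, i = 0 ∨ i = 1 ∨ i = 2 := by decide

/-- The structure forced by a four group without broad elements. -/
theorem structure_of_four [Finite P] [hp : Fact p.Prime] (hP : IsPGroup p P) (hp2 : p ≠ 2)
    (I : Subgroup (MulAut P)) (hIc : ∀ T ∈ I, ∀ T' ∈ I, T * T' = T' * T)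
    (hI2 : ∀ T ∈ I, T * T = 1) (hI8 : Nat.card I = 8)
    (t₁ t₂ : MulAut P) (h₁ : t₁ ∈ I) (h₂ : t₂ ∈ I)
    (n₁ : FixCyclic t₁) (n₂ : FixCyclic t₂) (n₃ : FixCyclic (t₁ * t₂)) :
    IsMulCommutative P ∧ (∃ a b c : P, closure {a, b, c} = ⊤) ∧
      (¬ ∃ a b : P, closure {a, b} = ⊤) ∧
      ∃ e₁ ∈ I, ∃ e₂ ∈ I, ∃ e₃ ∈ I, e₁ ≠ e₂ ∧ e₁ ≠ e₃ ∧ e₂ ≠ e₃ ∧
        (∀ T ∈ I, T ≠ 1 → (¬ FixCyclic T ↔ T = e₁ ∨ T = e₂ ∨ T = e₃)) ∧
        e₁ ≠ 1 ∧ e₂ ≠ 1 ∧ e₃ ≠ 1 ∧
        e₁ * e₂ = t₁ * t₂ ∧ e₂ * e₃ = t₁ ∧ e₁ * e₃ = t₂ ∧ closure {e₁, e₂, e₃} = I := by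
  classical
  obtain ⟨g₁, hg₁⟩ := n₁
  obtain ⟨g₂, hg₂⟩ := n₂
  obtain ⟨g₃, hg₃⟩ := n₃
  set g : Fin 3 → P := ![g₁, g₂, g₃] with hgdef
  set t : Fin 3 → MulAut P := ![t₁, t₂, t₁ * t₂] with htdef
  have htI : ∀ i, t i ∈ I := by
    intro i; fin_cases i
    · exact h₁
    · exact h₂
    · exact mul_mem h₁ h₂
  have hg : ∀ i x, t i x = x ↔ x ∈ zpowers (g i) := by
    intro i; fin_cases i
    · exact hg₁
    · exact hg₂
    · exact hg₃
  have hgen : ∀ H : Subgroup P, (∀ i, g i ∈ H) → H = ⊤ := fun H hH =>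
    generation hP hp2 t₁ t₂ (hI2 _ h₁) (hI2 _ h₂) (hIc _ h₁ _ h₂) H
      (fun x hx => zpowers_le.2 (hH 0) ((hg 0 x).1 hx))
      (fun x hx => zpowers_le.2 (hH 1) ((hg 1 x).1 hx))
      (fun x hx => zpowers_le.2 (hH 2) ((hg 2 x).1 hx))
  have hgfix : ∀ i, t i (g i) = g i := fun i => (hg i _).2 (mem_zpowers _)
  have hsign : ∀ T ∈ I, ∀ i, T (g i) = g i ∨ T (g i) = (g i)⁻¹ := by
    intro T hT i
    refine image_sign hP hp2 (hI2 T hT) ((hg i _).1 ?_)
    rw [← MulAut.mul_apply, hIc _ (htI i) _ hT, MulAut.mul_apply, hgfix]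
  have hsep : ∀ {T T' : MulAut P}, T ∈ I → T' ∈ I →
      (∀ i, T (g i) = g i ↔ T' (g i) = g i) → T = T' := by
    intro T T' hT hT' h
    have heq : ∀ i, T (g i) = T' (g i) := fun i => by
      by_cases h1 : T (g i) = g i
      · rw [h1, (h i).1 h1]
      · rw [(hsign T hT i).resolve_left h1,
          (hsign T' hT' i).resolve_left fun h2 => h1 ((h i).2 h2)]
    have := hgen (T.toMonoidHom.eqLocus T'.toMonoidHom) fun i => heq i
    exact MulEquiv.ext fun x => (this ▸ mem_top x : x ∈ T.toMonoidHom.eqLocus T'.toMonoidHom)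
  let χ : I → (Fin 3 → Bool) := fun T i => decide ((T : MulAut P) (g i) = g i)
  have hχi : Function.Injective χ := fun T T' h => Subtype.ext (hsep T.2 T'.2 fun i => by
    simpa [χ] using congrFun h i)
  have hχ : Function.Bijective χ :=
    (Nat.bijective_iff_injective_and_card χ).2 ⟨hχi, by
      rw [hI8, Nat.card_eq_fintype_card]; rfl⟩
  have hne : ∀ i, g i ≠ 1 := by
    intro i hi
    obtain ⟨T, hT⟩ := hχ.2 (fun _ => false)
    have := congrFun hT i
    simp [χ, hi] at this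
  have hexcl : ∀ (T : MulAut P) i, T (g i) = g i → T (g i) = (g i)⁻¹ → False := fun T i a b =>
    hne i (eq_one_of_sq hP hp2 (by
      nth_rw 2 [show g i = (g i)⁻¹ from a.symm.trans b]
      exact mul_inv_cancel _))
  have hne' : ∀ i, (g i)⁻¹ ≠ g i := fun i h => hne i (eq_one_of_sq hP hp2 (by
    nth_rw 2 [← h]; exact mul_inv_cancel _))
  have hfalse : ∀ T : I, ∀ i, χ T i = false → (T : MulAut P) (g i) = (g i)⁻¹ := fun T i h =>
    (hsign T T.2 i).resolve_left (by simpa [χ] using h)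
  have htrue : ∀ T : I, ∀ i, χ T i = true → (T : MulAut P) (g i) = g i := fun T i h => by
    simpa [χ] using h
  obtain ⟨u, hu⟩ := hχ.2 (fun _ => false)
  choose e he using fun i : Fin 3 => hχ.2 (fun j => decide (j ≠ i))
  have htχ : ∀ i j, i ≠ j → χ ⟨t i, htI i⟩ j = false := by
    intro i j hij
    by_contra h
    have h1 := htrue _ j (by simpa using h)
    obtain ⟨n, hn⟩ := mem_zpowers_iff.1 ((hg i _).1 h1)
    -- `g j` would have the character of `g i`
    have h2 : ∀ T ∈ I, T (g i) = g i → T (g j) = g j := fun T _ hT => by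
      rw [← hn, map_zpow, hT]
    have h3 := h2 (e j) (e j).2 (htrue _ _ (by rw [he]; simp [hij]))
    have h4 := hfalse (e j) j (by rw [he]; simp)
    exact hexcl _ _ h3 h4
  have htt : ∀ i, χ ⟨t i, htI i⟩ i = true := fun i => by simp [χ, hgfix i]
  -- abelian
  set N : Subgroup P := ⁅commutator P, (⊤ : Subgroup P)⁆ with hN
  haveI : N.Normal := Subgroup.commutator_normal _ _
  have hNchar : ∀ (T : MulAut P), ∀ x ∈ N, T x ∈ N := by
    intro T x hx
    haveI : N.Characteristic := Subgroup.commutator_characteristic _ _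
    exact ((Subgroup.characteristic_iff_comap_eq.1 ‹N.Characteristic› T).symm ▸ hx :
      x ∈ N.comap T.toMonoidHom)
  let π := QuotientGroup.mk' N
  have hπcen : ∀ c ∈ commutator P, ∀ y, π c * π y = π y * π c := fun c hc y => by
    refine commutatorElement_eq_one_iff_mul_comm.1 ?_
    rw [← map_commutatorElement, QuotientGroup.mk'_apply, QuotientGroup.eq_one_iff]
    exact commutator_mem_commutator hc (mem_top y)
  have hinvinv : ∀ a b : P, π ⁅a⁻¹, b⁻¹⁆ = π ⁅a, b⁆ := fun a b => by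
    have h1 : ⁅a⁻¹, b⁻¹⁆ = (b * a)⁻¹ * ⁅a, b⁆ * (b * a) := by
      simp only [commutatorElement_def]; group
    rw [h1, map_mul, map_mul, mul_assoc, hπcen _ (commutator_mem_commutator (mem_top a) (mem_top b)),
      ← mul_assoc, ← map_mul, inv_mul_cancel, map_one, one_mul]
  have hcomm : ∀ i j, π ⁅g i, g j⁆ = 1 := by
    intro i j
    by_cases hij : i = j
    · rw [hij, commutatorElement_self, map_one]
    obtain ⟨l, hli, hlj⟩ : ∃ l : Fin 3, l ≠ i ∧ l ≠ j := by
      revert i j hij; decide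
    have hinv' : ∀ (T : I), χ T i = false → χ T j = false →
        π ((T : MulAut P) ⁅g i, g j⁆) = π ⁅g i, g j⁆ := fun T a b => by
      rw [map_commutatorElement (T : MulAut P), hfalse T i a, hfalse T j b, hinvinv]
    obtain ⟨c, hc, hcy⟩ := exists_fixed hP hp2 (hI2 _ (htI l)) N (x := ⁅g i, g j⁆) (by
      rw [← QuotientGroup.eq]
      exact (hinv' ⟨t l, htI l⟩ (htχ l i hli) (htχ l j hlj)).symm)
    have hcπ : π c = π ⁅g i, g j⁆ := QuotientGroup.eq.2 hcy
    obtain ⟨n, hn⟩ := mem_zpowers_iff.1 ((hg l c).1 hc)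
    have huc : (u : MulAut P) c = c⁻¹ := by
      rw [← hn, map_zpow, hfalse u l (by rw [hu]), inv_zpow]
    have h1 : π ((u : MulAut P) c) = π c := by
      have h2 : π ((u : MulAut P) c) = π ((u : MulAut P) ⁅g i, g j⁆) := by
        refine QuotientGroup.eq.2 ?_
        rw [← map_inv, ← map_mul]
        exact hNchar _ _ hcy
      rw [h2, hinv' u (by rw [hu]) (by rw [hu]), hcπ]
    rw [huc, map_inv] at h1
    rw [← hcπ]
    exact eq_one_of_sq (hP.to_quotient N) hp2 (by nth_rw 1 [← h1]; exact inv_mul_cancel _)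
  have habel : ∀ x y : P, x * y = y * x := by
    have hgc : ∀ i, ∀ x, π (g i) * π x = π x * π (g i) := by
      intro i
      have : ((Subgroup.centralizer {π (g i)}).comap π) = ⊤ := hgen _ fun j => by
        rw [mem_comap, mem_centralizer_singleton_iff]
        have h := hcomm j i
        rw [map_commutatorElement, commutatorElement_eq_one_iff_mul_comm] at h
        exact h
      intro x
      have hx : x ∈ (Subgroup.centralizer {π (g i)}).comap π := this ▸ mem_top x
      exact (mem_centralizer_singleton_iff.1 hx).symm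
    have hall : (Subgroup.center (P ⧸ N)).comap π = ⊤ := hgen _ fun i => by
      rw [mem_comap, mem_center_iff]
      intro z
      obtain ⟨z, rfl⟩ := QuotientGroup.mk'_surjective N z
      exact (hgc i z).symm
    have hle : commutator P ≤ N := by
      rw [commutator_def, Subgroup.commutator_le]
      intro a _ b _
      rw [← QuotientGroup.eq_one_iff, ← QuotientGroup.mk'_apply, map_commutatorElement,
        commutatorElement_eq_one_iff_mul_comm]
      exact (mem_center_iff.1 (hall ▸ mem_top a : a ∈ (Subgroup.center (P ⧸ N)).comap π) (π b)).symm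
    haveI : Group.IsNilpotent P := hP.isNilpotent
    obtain ⟨n, hn⟩ := _root_.nilpotent_iff_lowerCentralSeries.1 (inferInstance : Group.IsNilpotent P)
    have hlow : ∀ m, commutator P ≤ (⊤ : Subgroup P).lowerCentralSeries m := by
      intro m
      induction m with
      | zero => exact le_top
      | succ m ih => exact hle.trans (by rw [hN]; exact Subgroup.commutator_mono ih le_rfl)
    intro x y
    refine commutatorElement_eq_one_iff_mul_comm.1 ?_
    rw [← mem_bot, ← hn]
    exact hlow n (commutator_mem_commutator (mem_top x) (mem_top y))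
  have hIsC : IsMulCommutative P := ⟨⟨habel⟩⟩
  letI : CommGroup P := { (inferInstance : Group P) with mul_comm := habel }
  have hcl : closure ({g 0, g 1, g 2} : Set P) = ⊤ := hgen _ fun i => by
    fin_cases i <;> exact subset_closure (by simp)
  have hdec : ∀ x : P, ∃ a : Fin 3 → ℤ, x = ∏ i, g i ^ a i := by
    intro x
    let H : Subgroup P :=
      { carrier := {x | ∃ a : Fin 3 → ℤ, x = ∏ i, g i ^ a i}
        one_mem' := ⟨0, by simp⟩
        mul_mem' := fun {x y} ⟨a, ha⟩ ⟨b, hb⟩ => ⟨a + b, by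
          rw [ha, hb, ← Finset.prod_mul_distrib]; simp [zpow_add]⟩
        inv_mem' := fun {x} ⟨a, ha⟩ => ⟨-a, by rw [ha, ← Finset.prod_inv_distrib]; simp⟩ }
    have : H = ⊤ := hgen H fun i => ⟨Pi.single i 1, by
      rw [Finset.prod_eq_single i (fun j _ hj => by simp [Pi.single_eq_of_ne hj]) (by simp)]
      simp⟩
    exact (this ▸ mem_top x : x ∈ H)
  have hindep : ∀ a : Fin 3 → ℤ, ∏ i, g i ^ a i = 1 → ∀ i, g i ^ a i = 1 := by
    intro a ha i
    have h1 := congrArg ((e i : I) : MulAut P) ha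
    rw [map_prod, map_one] at h1
    have h2 : ∏ j, ((e i : I) : MulAut P) (g j ^ a j) =
        (∏ j, g j ^ a j) * ((g i ^ a i) * (g i ^ a i))⁻¹ := by
      rw [← Finset.mul_prod_erase _ _ (Finset.mem_univ i),
        ← Finset.mul_prod_erase _ (fun j => g j ^ a j) (Finset.mem_univ i),
        map_zpow, hfalse (e i) i (by rw [he]; simp), inv_zpow]
      rw [Finset.prod_congr rfl fun j hj => by
        rw [map_zpow, htrue (e i) j (by rw [he]; simp [Finset.ne_of_mem_erase hj])]]
      rw [mul_inv_rev, mul_comm (g i ^ a i) (∏ j ∈ Finset.univ.erase i, g j ^ a j), mul_assoc,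
        mul_inv_cancel_left, mul_comm]
    rw [h2, ha, one_mul, inv_eq_one] at h1
    exact eq_one_of_sq hP hp2 h1
  refine ⟨hIsC, ⟨_, _, _, hcl⟩, ?_, e 0, (e 0).2, e 1, (e 1).2, e 2, (e 2).2, ?_⟩
  · rintro ⟨a, b, hab⟩
    let π' := QuotientGroup.mk' (powMonoidHom p : P →* P).range
    have hred : ∀ x : P, ∀ n : ℤ, π' (x ^ n) = π' x ^ (n : ZMod p).val := by
      intro x n
      have hxp : π' x ^ p = 1 := by
        rw [← map_pow, QuotientGroup.mk'_apply, QuotientGroup.eq_one_iff]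
        exact ⟨x, rfl⟩
      rw [map_zpow, ← zpow_natCast (π' x), ZMod.val_intCast]
      exact zpow_eq_zpow_emod' n hxp
    have hspan : ∀ x : P, ∃ i j : ZMod p, π' x = π' a ^ i.val * π' b ^ j.val := by
      intro x
      have hx : x ∈ closure ({a, b} : Set P) := hab ▸ mem_top x
      obtain ⟨m, n, rfl⟩ := mem_closure_pair.1 hx
      exact ⟨m, n, by rw [map_mul, hred, hred]⟩
    choose i j hij using fun s : Fin 3 → ZMod p => hspan (∏ l, g l ^ ((s l).val : ℤ))
    have hinj : Function.Injective fun s : Fin 3 → ZMod p => (i s, j s) := by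
      intro s s' h
      have h1 : π' (∏ l, g l ^ ((s l).val : ℤ)) = π' (∏ l, g l ^ ((s' l).val : ℤ)) := by
        rw [hij, hij]
        rw [show i s = i s' from congrArg Prod.fst h, show j s = j s' from congrArg Prod.snd h]
      obtain ⟨y, hy⟩ := QuotientGroup.eq.1 h1
      obtain ⟨c, rfl⟩ := hdec y
      funext l
      have h2 := hindep (fun l => ((s' l).val : ℤ) - (s l).val - c l * p) ?_ l
      · rw [← orderOf_dvd_iff_zpow_eq_one] at h2
        have hpd : p ∣ orderOf (g l) := by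
          obtain ⟨k, hk⟩ := IsPGroup.iff_orderOf.1 hP (g l)
          rw [hk]
          exact dvd_pow_self p (fun hk0 => hne l (orderOf_eq_one_iff.1 (by rw [hk, hk0, pow_zero])))
        have h3 := (Int.natCast_dvd_natCast.2 hpd).trans h2
        rw [← ZMod.intCast_zmod_eq_zero_iff_dvd] at h3
        exact (sub_eq_zero.1 (by simpa using h3)).symm
      · simp only [zpow_sub, Finset.prod_mul_distrib, Finset.prod_inv_distrib, zpow_mul,
          zpow_natCast, Finset.prod_pow]
        simp only [powMonoidHom_apply, zpow_natCast] at hy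
        rw [hy, mul_comm (∏ x, g x ^ (s' x).val) (∏ x, g x ^ (s x).val)⁻¹, mul_inv_cancel]
    have := Nat.card_le_card_of_injective _ hinj
    rw [Nat.card_prod, Nat.card_pi, Nat.card_zmod, Finset.prod_const, Finset.card_univ,
      Fintype.card_fin] at this
    have hp1 := hp.out.one_lt
    have h3 : p * p < p ^ 3 := by
      rw [← sq]; exact Nat.pow_lt_pow_right hp1 (by norm_num)
    omega
  · have hχ1 : ∀ T : I, (T : MulAut P) = 1 → ∀ i, χ T i = true := fun T h i => by simp [χ, h]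
    have hne1 : ∀ i, ((e i : I) : MulAut P) ≠ 1 := fun i h => by
      have := hχ1 _ h i
      rw [he] at this
      simp at this
    have hnee : ∀ i j, i ≠ j → ((e i : I) : MulAut P) ≠ e j := fun i j hij h => by
      have := congrArg (fun T => χ T i) (Subtype.ext h : e i = e j)
      simp [he, hij] at this
    have hprod : ∀ i j l, i ≠ j → i ≠ l → j ≠ l →
        ((e i : I) : MulAut P) * e j = t l := by
      intro i j l hij hil hjl
      refine hsep (mul_mem (e i).2 (e j).2) (htI l) fun m => ?_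
      rcases (show m = i ∨ m = j ∨ m = l by revert i j l m; decide) with rfl | rfl | rfl
      · rw [MulAut.mul_apply, htrue (e j) _ (by rw [he]; simp [hij]),
          hfalse (e _) _ (by rw [he]; simp)]
        exact iff_of_false (fun h => hne' _ h)
          (fun h => hexcl _ _ h (hfalse ⟨_, htI l⟩ _ (htχ l _ (Ne.symm hil))))
      · rw [MulAut.mul_apply, hfalse (e _) _ (by rw [he]; simp), map_inv,
          htrue (e i) _ (by rw [he]; simp [Ne.symm hij])]
        exact iff_of_false (fun h => hne' _ h)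
          (fun h => hexcl _ _ h (hfalse ⟨_, htI l⟩ _ (htχ l _ (Ne.symm hjl))))
      · rw [MulAut.mul_apply, htrue (e j) _ (by rw [he]; simp [Ne.symm hjl]),
          htrue (e i) _ (by rw [he]; simp [Ne.symm hil])]
        exact iff_of_true rfl (hgfix _)
    have hbroad : ∀ i, ¬ FixCyclic ((e i : I) : MulAut P) := by
      rintro i ⟨c, hc⟩
      obtain ⟨j, l, hji, hli, hjl⟩ := fin_three_others i
      obtain ⟨m, hm⟩ := mem_zpowers_iff.1 ((hc _).1 (htrue (e i) j (by rw [he]; simp [hji])))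
      obtain ⟨n, hn⟩ := mem_zpowers_iff.1 ((hc _).1 (htrue (e i) l (by rw [he]; simp [hli])))
      have hcI : ∀ T ∈ I, T c = c ∨ T c = c⁻¹ := fun T hT => by
        refine image_sign hP hp2 (hI2 T hT) ((hc _).1 ?_)
        rw [← MulAut.mul_apply, hIc _ (e i).2 _ hT, MulAut.mul_apply,
          (hc c).2 (mem_zpowers c)]
      rcases hcI (e j) (e j).2 with h | h
      · have h2 : (e j : MulAut P) (g j) = g j := by rw [← hm, map_zpow, h]
        exact hexcl _ _ h2 (hfalse (e j) j (by rw [he]; simp))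
      · have h2 : (e j : MulAut P) (g l) = (g l)⁻¹ := by rw [← hn, map_zpow, h, inv_zpow]
        exact hexcl _ _ (htrue (e j) l (by rw [he]; simp [Ne.symm hjl])) h2
    have hufix : FixCyclic (u : MulAut P) := by
      refine ⟨1, fun x => ⟨fun hx => ?_, fun hx => ?_⟩⟩
      · obtain ⟨a, rfl⟩ := hdec x
        have h1 : (u : MulAut P) (∏ i, g i ^ a i) = (∏ i, g i ^ a i)⁻¹ := by
          rw [map_prod, ← Finset.prod_inv_distrib]
          refine Finset.prod_congr rfl fun i _ => ?_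
          rw [map_zpow, hfalse u i (by rw [hu]), inv_zpow]
        rw [hx] at h1
        have h2 := eq_one_of_sq hP hp2 (x := ∏ i, g i ^ a i)
          (by nth_rw 2 [h1]; exact mul_inv_cancel _)
        rw [h2]; exact one_mem _
      · rw [zpowers_one_eq_bot, mem_bot] at hx
        rw [hx, map_one]
    have hclass : ∀ T ∈ I, T = 1 ∨ T = t₁ ∨ T = t₂ ∨ T = t₁ * t₂ ∨ T = e 0 ∨ T = e 1 ∨ T = e 2 ∨
        T = u := by
      intro T hT
      have key : ∀ f : Fin 3 → Bool, f = (fun _ => true) ∨ f = (fun j => decide (j = 0)) ∨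
          f = (fun j => decide (j = 1)) ∨ f = (fun j => decide (j = 2)) ∨
          f = (fun j => decide (j ≠ 0)) ∨ f = (fun j => decide (j ≠ 1)) ∨
          f = (fun j => decide (j ≠ 2)) ∨ f = (fun _ => false) := by decide
      have ht' : ∀ i, χ ⟨t i, htI i⟩ = fun j => decide (j = i) := fun i => funext fun j => by
        by_cases h : j = i
        · subst h; rw [htt]; simp
        · rw [htχ i j (Ne.symm h)]; simp [h]
      rcases key (χ ⟨T, hT⟩) with h | h | h | h | h | h | h | h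
      · exact Or.inl (congrArg Subtype.val (hχi (a₂ := (1 : I))
          (h.trans (funext fun j => (hχ1 1 rfl j).symm))))
      · exact Or.inr (Or.inl (congrArg Subtype.val (hχi (h.trans (ht' 0).symm))))
      · exact Or.inr (Or.inr (Or.inl (congrArg Subtype.val (hχi (h.trans (ht' 1).symm)))))
      · exact Or.inr (Or.inr (Or.inr (Or.inl (congrArg Subtype.val (hχi (h.trans (ht' 2).symm))))))
      all_goals first
        | exact Or.inr (Or.inr (Or.inr (Or.inr (Or.inl
            (congrArg Subtype.val (hχi (h.trans (he 0).symm)))))))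
        | exact Or.inr (Or.inr (Or.inr (Or.inr (Or.inr (Or.inl
            (congrArg Subtype.val (hχi (h.trans (he 1).symm))))))))
        | exact Or.inr (Or.inr (Or.inr (Or.inr (Or.inr (Or.inr (Or.inl
            (congrArg Subtype.val (hχi (h.trans (he 2).symm)))))))))
        | exact Or.inr (Or.inr (Or.inr (Or.inr (Or.inr (Or.inr (Or.inr
            (congrArg Subtype.val (hχi (h.trans hu.symm)))))))))
    refine ⟨hnee 0 1 (by decide), hnee 0 2 (by decide), hnee 1 2 (by decide), fun T hT hT1 => ?_,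
      hne1 0, hne1 1, hne1 2, hprod 0 1 2 (by decide) (by decide) (by decide),
      hprod 1 2 0 (by decide) (by decide) (by decide),
      hprod 0 2 1 (by decide) (by decide) (by decide), ?_⟩
    · constructor
      · intro hb
        rcases hclass T hT with h | h | h | h | h | h | h | h
        · exact absurd h hT1
        · exact absurd ⟨g₁, h ▸ hg₁⟩ hb
        · exact absurd ⟨g₂, h ▸ hg₂⟩ hb
        · exact absurd ⟨g₃, h ▸ hg₃⟩ hb
        · exact Or.inl h
        · exact Or.inr (Or.inl h)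
        · exact Or.inr (Or.inr h)
        · exact absurd (h ▸ hufix) hb
      · rintro (rfl | rfl | rfl) <;> exact hbroad _
    · refine le_antisymm ((closure_le I).2 (by
        rintro T (rfl | rfl | rfl) <;> exact SetLike.coe_mem _)) fun T hT => ?_
      set H := closure ({((e 0 : I) : MulAut P), ((e 1 : I) : MulAut P), ((e 2 : I) : MulAut P)} :
        Set (MulAut P)) with hH
      have he' : ∀ i, ((e i : I) : MulAut P) ∈ H := by
        intro i; fin_cases i <;> exact subset_closure (by simp)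
      have ht'' : ∀ i, t i ∈ H := by
        intro i
        obtain ⟨j, l, hji, hli, hjl⟩ := fin_three_others i
        rw [← hprod j l i hjl hji hli]
        exact mul_mem (he' j) (he' l)
      have hu' : (u : MulAut P) = ((e 0 : I) : MulAut P) * t 0 := by
        refine hsep u.2 (mul_mem (e 0).2 (htI 0)) fun m => ?_
        have h1 := hfalse u m (by rw [hu])
        rw [MulAut.mul_apply]
        rcases fin_three_cases m with rfl | rfl | rfl
        · rw [hgfix, hfalse (e 0) 0 (by rw [he]; simp)]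
          exact iff_of_false (fun h => hexcl _ _ h h1) (fun h => hne' _ h)
        · rw [hfalse ⟨t 0, htI 0⟩ 1 (htχ 0 1 (by decide)), map_inv,
            htrue (e 0) 1 (by rw [he]; simp)]
          exact iff_of_false (fun h => hexcl _ _ h h1) (fun h => hne' _ h)
        · rw [hfalse ⟨t 0, htI 0⟩ 2 (htχ 0 2 (by decide)), map_inv,
            htrue (e 0) 2 (by rw [he]; simp)]
          exact iff_of_false (fun h => hexcl _ _ h h1) (fun h => hne' _ h)
      rcases hclass T hT with h | h | h | h | h | h | h | h <;> rw [h]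
      · exact one_mem _
      · exact ht'' 0
      · exact ht'' 1
      · exact ht'' 2
      · exact he' 0
      · exact he' 1
      · exact he' 2
      · rw [hu']; exact mul_mem (he' 0) (ht'' 0)

/-- Theorem: at most two broad cosets forces three broad elements. -/
theorem main [Finite P] [hp : Fact p.Prime] (hP : IsPGroup p P) (hp2 : p ≠ 2)
    (I : Subgroup (MulAut P)) (hIc : ∀ T ∈ I, ∀ T' ∈ I, T * T' = T' * T)
    (hI2 : ∀ T ∈ I, T * T = 1) (hI8 : Nat.card I = 8) (I₀ : Subgroup (MulAut P)) (hI₀ : I₀ < I)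
    (hdisj : ∀ T ∈ I₀, T ≠ 1 → FixCyclic T)
    (hprod : ∀ T ∈ I, ∀ T' ∈ I, T ≠ 1 → T' ≠ 1 → ¬ FixCyclic T → ¬ FixCyclic T' → T * T' ∈ I₀) :
    IsMulCommutative P ∧ (∃ a b c : P, closure {a, b, c} = ⊤) ∧
      (¬ ∃ a b : P, closure {a, b} = ⊤) ∧
      Nat.card {T : MulAut P // T ∈ I ∧ T ≠ 1 ∧ ¬ FixCyclic T} = 3 ∧
      closure {T : MulAut P | T ∈ I ∧ T ≠ 1 ∧ ¬ FixCyclic T} = I ∧
      (I₀ : Set (MulAut P)) = {S : MulAut P | ∃ T T' : MulAut P, T ∈ I ∧ T' ∈ I ∧ T ≠ 1 ∧ T' ≠ 1 ∧
        ¬ FixCyclic T ∧ ¬ FixCyclic T' ∧ S = T * T'} := by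
  classical
  haveI : Finite I := Nat.finite_of_card_ne_zero (by omega)
  haveI : Finite I₀ :=
    Finite.of_injective _ (Subgroup.inclusion_injective hI₀.le)
  have hc0 : Nat.card I₀ ≤ 4 := by
    have h1 := Subgroup.card_dvd_of_le hI₀.le
    have h2 : Nat.card I₀ < Nat.card I := lt_of_not_ge fun h =>
      hI₀.ne (Subgroup.eq_of_le_of_card_ge hI₀.le h)
    rw [hI8] at h1 h2
    interval_cases Nat.card I₀ <;> omega
  obtain ⟨t₁, t₂, h₁, h₂, n₁, n₂, n₃⟩ : ∃ t₁ t₂, t₁ ∈ I ∧ t₂ ∈ I ∧ FixCyclic t₁ ∧ FixCyclic t₂ ∧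
      FixCyclic (t₁ * t₂) ∧ t₁ ≠ 1 ∧ t₂ ≠ 1 ∧ t₁ ≠ t₂ := by
    by_cases h4 : Nat.card I₀ = 4
    · haveI : Nontrivial I₀ := Finite.one_lt_card_iff_nontrivial.1 (by omega)
      obtain ⟨⟨a, ha⟩, ha1⟩ := exists_ne (1 : I₀)
      have hlt : zpowers a < I₀ := lt_of_le_of_ne (zpowers_le.2 ha) fun e => by
        have hd : Nat.card I₀ ∣ 2 := by
          rw [← e, Nat.card_zpowers]
          exact orderOf_dvd_of_pow_eq_one (by rw [sq, hI2 a (hI₀.le ha)])
        rw [h4] at hd
        exact absurd (Nat.le_of_dvd two_pos hd) (by norm_num)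
      obtain ⟨b, hb, hba⟩ := SetLike.exists_of_lt hlt
      have ha' : a ≠ 1 := fun e => ha1 (Subtype.ext e)
      have hb' : b ≠ 1 := fun e => hba (e ▸ one_mem _)
      have hab : a ≠ b := fun e => hba (e ▸ mem_zpowers a)
      refine ⟨a, b, hI₀.le ha, hI₀.le hb, hdisj a ha ha', hdisj b hb hb',
        hdisj _ (mul_mem ha hb) fun e => hba ?_, ha', hb', hab⟩
      rw [eq_inv_of_mul_eq_one_right e]
      exact inv_mem (mem_zpowers a)
    · -- at most two broad elements
      have hc2 : Nat.card I₀ ≤ 2 := by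
        have h1 := Subgroup.card_dvd_of_le hI₀.le
        rw [hI8] at h1
        interval_cases Nat.card I₀ <;> omega
      haveI : Nontrivial I := Finite.one_lt_card_iff_nontrivial.1 (by omega)
      obtain ⟨x, y, hxI, hyI, hx1, hy1, hxy, hB⟩ : ∃ x y, x ∈ I ∧ y ∈ I ∧ x ≠ 1 ∧ y ≠ 1 ∧ x ≠ y ∧
          ∀ T ∈ I, T ≠ 1 → ¬ FixCyclic T → T = x ∨ T = y := by
        have hne2 : ∀ s : Finset (MulAut P), s.card ≤ 7 → ∃ y ∈ I, y ∉ s := by
          intro s hs
          by_contra h
          push Not at h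
          have := Nat.card_le_card_of_injective (fun T : I => (⟨T.1, h T.1 T.2⟩ : s))
            (fun a b e => Subtype.ext (congrArg (fun t : s => (t : MulAut P)) e))
          rw [hI8, Nat.card_eq_finsetCard] at this
          omega
        by_cases hbr : ∃ T ∈ I, T ≠ 1 ∧ ¬ FixCyclic T
        · obtain ⟨x, hxI, hx1, hx⟩ := hbr
          by_cases hbr2 : ∃ T ∈ I, T ≠ 1 ∧ ¬ FixCyclic T ∧ T ≠ x
          · obtain ⟨y, hyI, hy1, hy, hyx⟩ := hbr2
            refine ⟨x, y, hxI, hyI, hx1, hy1, Ne.symm hyx, fun T hT hT1 hTb => ?_⟩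
            by_contra hc
            push Not at hc
            have m1 := hprod x hxI y hyI hx1 hy1 hx hy
            have m2 := hprod x hxI T hT hx1 hT1 hx hTb
            have hsub : ({1, x * y, x * T} : Finset (MulAut P)).card = 3 := by
              rw [Finset.card_insert_of_notMem, Finset.card_pair]
              · exact fun e => hc.2 (mul_left_cancel e).symm
              · simp only [Finset.mem_insert, Finset.mem_singleton, not_or]
                refine ⟨fun e => hyx ?_, fun e => hc.1 ?_⟩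
                · exact mul_left_cancel ((e.symm).trans (hI2 x hxI).symm)
                · exact mul_left_cancel ((e.symm).trans (hI2 x hxI).symm)
            have h3 := Nat.card_le_card_of_injective
              (fun s : ({1, x * y, x * T} : Finset (MulAut P)) => (⟨s.1, by
                have hs := s.2
                rw [Finset.mem_insert, Finset.mem_insert, Finset.mem_singleton] at hs
                rcases hs with h | h | h <;> rw [h]
                · exact one_mem _
                · exact m1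
                · exact m2⟩ : I₀))
              (fun a b e => Subtype.ext (congrArg (fun t : I₀ => (t : MulAut P)) e))
            rw [Nat.card_eq_finsetCard, hsub] at h3
            omega
          · push Not at hbr2
            obtain ⟨y, hyI, hy⟩ := hne2 {1, x} (Finset.card_le_two.trans (by norm_num))
            simp only [Finset.mem_insert, Finset.mem_singleton, not_or] at hy
            exact ⟨x, y, hxI, hyI, hx1, hy.1, Ne.symm hy.2,
              fun T hT h1 h2 => Or.inl (hbr2 T hT h1 h2)⟩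
        · push Not at hbr
          obtain ⟨x, hxI, hx⟩ := hne2 {1} (by simp)
          obtain ⟨y, hyI, hy⟩ := hne2 {1, x} (Finset.card_le_two.trans (by norm_num))
          simp only [Finset.mem_insert, Finset.mem_singleton, not_or] at hy hx
          exact ⟨x, y, hxI, hyI, hx, hy.1, Ne.symm hy.2,
            fun T hT h1 h2 => absurd (hbr T hT h1) h2⟩
      obtain ⟨z, hzI, hz⟩ : ∃ z ∈ I, z ∉ ({1, x, y, x * y} : Finset (MulAut P)) := by
        by_contra h
        push Not at h
        have := Nat.card_le_card_of_injective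
          (fun T : I => (⟨T.1, h T.1 T.2⟩ : ({1, x, y, x * y} : Finset (MulAut P))))
          (fun a b e => Subtype.ext (congrArg (fun t : ({1, x, y, x * y} : Finset (MulAut P)) =>
            (t : MulAut P)) e))
        rw [hI8, Nat.card_eq_finsetCard] at this
        have := Finset.card_le_four (a := (1 : MulAut P)) (b := x) (c := y) (d := x * y)
        omega
      simp only [Finset.mem_insert, Finset.mem_singleton, not_or] at hz
      obtain ⟨hz1, hzx, hzy, hzxy⟩ := hz
      have hxy1 : x * y ≠ 1 := fun e => hxy (mul_left_cancel ((hI2 x hxI).trans e.symm))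
      have hnb : ∀ T ∈ I, T ≠ 1 → T ≠ x → T ≠ y → FixCyclic T := fun T hT h1 h2 h3 => by
        by_contra h
        rcases hB T hT h1 h with e | e
        · exact h2 e
        · exact h3 e
      refine ⟨x * y, z, mul_mem hxI hyI, hzI,
        hnb _ (mul_mem hxI hyI) hxy1 (fun e => hy1 (mul_eq_left.1 e))
          (fun e => hx1 (mul_eq_right.1 e)),
        hnb z hzI hz1 hzx hzy, hnb _ (mul_mem (mul_mem hxI hyI) hzI) ?_ ?_ ?_, hxy1, hz1,
        Ne.symm hzxy⟩
      · intro e
        exact hzxy (mul_left_cancel (e.trans (hI2 _ (mul_mem hxI hyI)).symm))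
      · intro e
        rw [mul_assoc, mul_eq_left] at e
        exact hzy (mul_left_cancel (e.trans (hI2 y hyI).symm))
      · intro e
        rw [hIc x hxI y hyI, mul_assoc, mul_eq_left] at e
        exact hzx (mul_left_cancel (e.trans (hI2 x hxI).symm))
  obtain ⟨n₃, ht1, ht2, ht12⟩ := n₃
  obtain ⟨hab, hgen3, hngen2, e₁, he₁, e₂, he₂, e₃, he₃, h12, h13, h23, hbroad, hn1, hn2, hn3, q3,
    q1, q2, hclos⟩ := structure_of_four hP hp2 I hIc hI2 hI8 t₁ t₂ h₁ h₂ n₁ n₂ n₃
  have hset : {T : MulAut P | T ∈ I ∧ T ≠ 1 ∧ ¬ FixCyclic T} = {e₁, e₂, e₃} := by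
    ext T
    simp only [Set.mem_setOf_eq, Set.mem_insert_iff, Set.mem_singleton_iff]
    constructor
    · rintro ⟨hT, hT1, hb⟩
      exact (hbroad T hT hT1).1 hb
    · intro h
      rcases h with rfl | rfl | rfl
      · exact ⟨he₁, hn1, (hbroad _ he₁ hn1).2 (Or.inl rfl)⟩
      · exact ⟨he₂, hn2, (hbroad _ he₂ hn2).2 (Or.inr (Or.inl rfl))⟩
      · exact ⟨he₃, hn3, (hbroad _ he₃ hn3).2 (Or.inr (Or.inr rfl))⟩
  have hb : ∀ T, T = e₁ ∨ T = e₂ ∨ T = e₃ → T ∈ I ∧ T ≠ 1 ∧ ¬ FixCyclic T := fun T h => by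
    have : T ∈ {T : MulAut P | T ∈ I ∧ T ≠ 1 ∧ ¬ FixCyclic T} := by rw [hset]; exact h
    exact this
  refine ⟨hab, hgen3, hngen2, ?_, by rw [hset, hclos], ?_⟩
  · show Nat.card {T : MulAut P | T ∈ I ∧ T ≠ 1 ∧ ¬ FixCyclic T} = 3
    rw [hset, Nat.card_coe_set_eq, Set.ncard_insert_of_notMem (by simp [h12, h13]),
      Set.ncard_pair h23]
  have hp12 : t₁ * t₂ ≠ 1 := fun e => ht12 (mul_left_cancel ((hI2 t₁ h₁).trans e.symm))
  have hsubI : ∀ S, (∃ T T' : MulAut P, T ∈ I ∧ T' ∈ I ∧ T ≠ 1 ∧ T' ≠ 1 ∧ ¬ FixCyclic T ∧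
      ¬ FixCyclic T' ∧ S = T * T') → S ∈ I₀ := by
    rintro _ ⟨T, T', hT, hT', a, b, c, d, rfl⟩
    exact hprod T hT T' hT' a b c d
  refine Set.Subset.antisymm ?_ hsubI
  have hex : ∀ S, S = 1 ∨ S = t₁ ∨ S = t₂ ∨ S = t₁ * t₂ → ∃ T T' : MulAut P, T ∈ I ∧ T' ∈ I ∧
      T ≠ 1 ∧ T' ≠ 1 ∧ ¬ FixCyclic T ∧ ¬ FixCyclic T' ∧ S = T * T' := by
    intro S hS
    obtain ⟨T, T', hT, hT', he⟩ : ∃ T T', (T = e₁ ∨ T = e₂ ∨ T = e₃) ∧
        (T' = e₁ ∨ T' = e₂ ∨ T' = e₃) ∧ S = T * T' := by
      rcases hS with rfl | rfl | rfl | rfl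
      · exact ⟨e₁, e₁, Or.inl rfl, Or.inl rfl, (hI2 _ he₁).symm⟩
      · exact ⟨e₂, e₃, Or.inr (Or.inl rfl), Or.inr (Or.inr rfl), q1.symm⟩
      · exact ⟨e₁, e₃, Or.inl rfl, Or.inr (Or.inr rfl), q2.symm⟩
      · exact ⟨e₁, e₂, Or.inl rfl, Or.inr (Or.inl rfl), q3.symm⟩
    obtain ⟨a, b, c⟩ := hb T hT
    obtain ⟨a', b', c'⟩ := hb T' hT'
    exact ⟨T, T', a, a', b, b', c, c', he⟩
  intro S hS
  refine hex S ?_
  by_contra hc
  push Not at hc
  obtain ⟨c1, c2, c3, c4⟩ := hc
  have hmem : ∀ X ∈ ({1, t₁, t₂, t₁ * t₂, S} : Finset (MulAut P)), X ∈ I₀ := by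
    intro X hX
    simp only [Finset.mem_insert, Finset.mem_singleton] at hX
    rcases hX with rfl | rfl | rfl | rfl | rfl
    · exact one_mem _
    · exact hsubI _ (hex _ (Or.inr (Or.inl rfl)))
    · exact hsubI _ (hex _ (Or.inr (Or.inr (Or.inl rfl))))
    · exact hsubI _ (hex _ (Or.inr (Or.inr (Or.inr rfl))))
    · exact hS
  have h5 : ({1, t₁, t₂, t₁ * t₂, S} : Finset (MulAut P)).card = 5 := by
    have hA : t₁ ≠ t₁ * t₂ := fun e => ht2 (left_eq_mul.1 e)
    have hB : t₂ ≠ t₁ * t₂ := fun e => ht1 (right_eq_mul.1 e)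
    rw [Finset.card_insert_of_notMem, Finset.card_insert_of_notMem,
      Finset.card_insert_of_notMem, Finset.card_pair] <;>
      simp [Ne.symm ht1, Ne.symm ht2, Ne.symm hp12, ht12, hA, hB, Ne.symm c1, Ne.symm c2,
        Ne.symm c3, Ne.symm c4]
  have := Nat.card_le_card_of_injective
    (fun X : ({1, t₁, t₂, t₁ * t₂, S} : Finset (MulAut P)) => (⟨X.1, hmem X.1 X.2⟩ : I₀))
    (fun a b e => Subtype.ext (congrArg (fun t : I₀ => (t : MulAut P)) e))
  rw [Nat.card_eq_finsetCard, h5] at this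
  omega

end Cfsg.Agent.AutEight
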